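import Mathlib
import Cfsg.Agent.Arith.Sylvester
import Cfsg.Agent.PermP.PrimeCycle
import Cfsg.Agent.Alt.Automorphism
import Cfsg.Agent.Invol.BrauerFowler

/-!
# Derangements of the largest prime order for primitive groups with alternating socle

For a maximal subgroup of `A_m` or `S_m` meeting `A_m` in `K`, the alternating group has an
element of order `r`, the largest prime divisor of `[A_m : K]`, with no conjugate in `K`.
-/

set_option autoImplicit false

namespace Cfsg.Agent.AltSocle

open MulAction Equiv Pointwise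

/-- A map of prime period fixes every point of an invariant set with fewer points than the
period. -/
theorem fixed_of_small {β : Type*} {r : ℕ} (hr : r.Prime) (f : β → β) (hf : f^[r] = id)
    (s : Finset β) (hs : ∀ a ∈ s, f a ∈ s) (hlt : s.card < r) {a : β} (ha : a ∈ s) : f a = a := by
  have hdvd : Function.minimalPeriod f a ∣ r :=
    Function.IsPeriodicPt.minimalPeriod_dvd (show f^[r] a = a by rw [hf]; rfl)
  rcases (Nat.dvd_prime hr).1 hdvd with h | h
  · exact Function.minimalPeriod_eq_one_iff_isFixedPt.1 h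
  · exfalso
    have hmem : ∀ i, f^[i] a ∈ s := by
      intro i
      induction i with
      | zero => exact ha
      | succ i ih => rw [Function.iterate_succ_apply']; exact hs _ ih
    have hle : (Finset.range r).card ≤ s.card :=
      Finset.card_le_card_of_injOn (fun i => f^[i] a) (fun i _ => hmem i) (fun i hi j hj e =>
        Function.iterate_injOn_Iio_minimalPeriod (f := f) (x := a)
          (by simpa [h] using hi) (by simpa [h] using hj) e)
    rw [Finset.card_range] at hle
    omega

/-- A `p`-element has a conjugate in every subgroup of index prime to `p`. -/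
theorem exists_conj_mem {G : Type*} [Group G] {p : ℕ} [Fact p.Prime] {K : Subgroup G}
    (hK : ¬ p ∣ K.index) {x : G} (hx : IsPGroup p (Subgroup.zpowers x)) :
    ∃ g : G, g * x * g⁻¹ ∈ K := by
  obtain ⟨q, hq⟩ := hx.nonempty_fixed_point_of_prime_not_dvd_card (G ⧸ K)
    (by rwa [← Subgroup.index_eq_card])
  induction q using QuotientGroup.induction_on with
  | _ g =>
    refine ⟨g⁻¹, ?_⟩
    have h := hq ⟨x, Subgroup.mem_zpowers x⟩
    change ((x * g : G) : G ⧸ K) = (g : G ⧸ K) at h
    rw [QuotientGroup.eq] at h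
    have := K.inv_mem h
    simpa [mul_assoc] using this

theorem not_sq_dvd_factorial {r : ℕ} (hr : r.Prime) : ∀ n < 2 * r, ¬ r * r ∣ n.factorial := by
  intro n
  induction n with
  | zero =>
    intro _ h
    rw [Nat.factorial_zero, Nat.dvd_one] at h
    nlinarith [hr.two_le]
  | succ n ih =>
    intro hn h
    rw [Nat.factorial_succ] at h
    by_cases he : n + 1 = r
    · rw [he] at h
      have h1 := Nat.dvd_of_mul_dvd_mul_left hr.pos h
      have := (hr.dvd_factorial).1 h1
      omega
    · refine ih (by omega) ?_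
      refine (Nat.Coprime.dvd_of_dvd_mul_left ?_ h)
      refine Nat.Coprime.mul_left ?_ ?_ <;>
      · rw [hr.coprime_iff_not_dvd]
        intro hd
        obtain ⟨c, hc⟩ := hd
        rcases Nat.lt_or_ge c 2 with hc2 | hc2
        · interval_cases c <;> omega
        · nlinarith

variable {m : ℕ}

/-- Some element of order `r` of the alternating group has no conjugate in `K`. -/
def Good (r : ℕ) (K : Subgroup (alternatingGroup (Fin m))) : Prop :=
  ∃ x : alternatingGroup (Fin m), orderOf x = r ∧
    ∀ y : alternatingGroup (Fin m), y * x * y⁻¹ ∉ K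

theorem two_mul_natCard (hm : 2 ≤ m) :
    2 * Nat.card (alternatingGroup (Fin m)) = m.factorial := by
  have : Nontrivial (Fin m) := Fin.nontrivial_iff_two_le.2 hm
  rw [Nat.card_eq_fintype_card, two_mul_card_alternatingGroup, Fintype.card_perm,
    Fintype.card_fin]

theorem good_of_not_dvd {r : ℕ} (hr : r.Prime) {K : Subgroup (alternatingGroup (Fin m))}
    (hA : r ∣ Nat.card (alternatingGroup (Fin m))) (hK : ¬ r ∣ Nat.card K) : Good r K := by
  have := Fact.mk hr
  obtain ⟨x, hx⟩ := exists_prime_orderOf_dvd_card' r hA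
  refine ⟨x, hx, fun y hy => hK ?_⟩
  have h1 : orderOf (y * x * y⁻¹) = r := by
    rw [← hx]
    exact (MulAut.conj y).orderOf_eq x
  exact h1 ▸ Subgroup.orderOf_dvd_natCard K hy

theorem good_of_lt {r : ℕ} (hr : r.Prime) (hm : 2 ≤ m) {K : Subgroup (alternatingGroup (Fin m))}
    (hrd : r ∣ K.index) (hgt : m < 2 * r) : Good r K := by
  refine good_of_not_dvd hr (hrd.trans K.index_dvd_card) fun hK => ?_
  refine not_sq_dvd_factorial hr m hgt ?_
  rw [← two_mul_natCard hm, ← K.index_mul_card]
  exact Dvd.dvd.mul_left (mul_dvd_mul hrd hK) 2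

theorem exists_prod_cycles {r j : ℕ} (hr : r.Prime) (hj : j ≠ 0) (hjm : j * r ≤ m)
    (hev : Even (j * (r + 1))) :
    ∃ x : alternatingGroup (Fin m), orderOf x = r ∧
      (x : Perm (Fin m)).cycleType = Multiset.replicate j r := by
  obtain ⟨σ, hσ⟩ := (Perm.exists_with_cycleType_iff (Fin m)
    (m := Multiset.replicate j r)).mpr ⟨by
      rw [Multiset.sum_replicate, Fintype.card_fin, smul_eq_mul]; exact hjm,
      fun a ha => by rw [Multiset.eq_of_mem_replicate ha]; exact hr.two_le⟩
  have hs : σ ∈ alternatingGroup (Fin m) := by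
    rw [Perm.mem_alternatingGroup, Perm.sign_of_cycleType, hσ, Multiset.sum_replicate,
      Multiset.card_replicate, smul_eq_mul, show j * r + j = j * (r + 1) by ring]
    exact hev.neg_one_pow
  refine ⟨⟨σ, hs⟩, ?_, hσ⟩
  rw [← Subgroup.orderOf_coe, ← Perm.lcm_cycleType, hσ]
  refine Nat.dvd_antisymm (Multiset.lcm_dvd.mpr fun a ha => ?_)
    (Multiset.dvd_lcm (Multiset.mem_replicate.mpr ⟨hj, rfl⟩))
  rw [Multiset.eq_of_mem_replicate ha]

theorem cycleType_conj_eq (x y : alternatingGroup (Fin m)) :
    ((y * x * y⁻¹ : alternatingGroup (Fin m)) : Perm (Fin m)).cycleType =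
      (x : Perm (Fin m)).cycleType := by
  simp [Perm.cycleType_conj]

/-- The alternating group moves any `k`-set to any other. -/
theorem exists_smul_eq (hm : 3 ≤ m) {s t : Finset (Fin m)} (h : s.card = t.card) :
    ∃ σ ∈ alternatingGroup (Fin m), σ • s = t := by
  classical
  let e := Finset.equivOfCardEq h
  have hσ : e.extendSubtype • s = t := by
    refine Finset.eq_of_subset_of_card_le (fun z hz => ?_)
      (le_of_eq ((Finset.card_smul_finset _ _).trans h).symm)
    rw [Finset.mem_smul_finset] at hz
    obtain ⟨a, ha, rfl⟩ := hz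
    exact Equiv.extendSubtype_mem e a ha
  by_cases hev : e.extendSubtype ∈ alternatingGroup (Fin m)
  · exact ⟨_, hev, hσ⟩
  have hab : ∃ a b, a ≠ b ∧ (a ∈ s ↔ b ∈ s) := by
    rcases Nat.lt_or_ge 1 s.card with h2 | h2
    · obtain ⟨a, ha, b, hb, hne⟩ := Finset.one_lt_card.1 h2
      exact ⟨a, b, hne, iff_of_true ha hb⟩
    · obtain ⟨a, ha, b, hb, hne⟩ := Finset.one_lt_card.1
        (show 1 < sᶜ.card by rw [Finset.card_compl, Fintype.card_fin]; omega)
      exact ⟨a, b, hne, iff_of_false (Finset.mem_compl.1 ha) (Finset.mem_compl.1 hb)⟩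
  obtain ⟨a, b, hne, hiff⟩ := hab
  have hτ : Equiv.swap a b • s = s := by
    refine Finset.eq_of_subset_of_card_le (fun z hz => ?_) (Finset.card_smul_finset _ _).ge
    rw [Finset.mem_smul_finset] at hz
    obtain ⟨c, hc, rfl⟩ := hz
    rw [Perm.smul_def]
    by_cases hca : c = a
    · subst hca; rw [Equiv.swap_apply_left]; exact hiff.1 hc
    by_cases hcb : c = b
    · subst hcb; rw [Equiv.swap_apply_right]; exact hiff.2 hc
    rwa [Equiv.swap_apply_of_ne_of_ne hca hcb]
  refine ⟨e.extendSubtype * Equiv.swap a b, ?_, by rw [mul_smul, hτ, hσ]⟩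
  rw [Perm.mem_alternatingGroup] at hev ⊢
  rw [Perm.sign_mul, Perm.sign_swap hne]
  rcases Int.units_eq_one_or (Perm.sign e.extendSubtype) with h1 | h1
  · exact absurd h1 hev
  · rw [h1]; rfl

/-- The intransitive case. -/
theorem good_intransitive (hm : 5 ≤ m) {r : ℕ} (hr : r.Prime)
    {K : Subgroup (alternatingGroup (Fin m))} (hrd : r ∣ K.index)
    (hmax : ∀ s : ℕ, s.Prime → s ∣ K.index → s ≤ r)
    (s : Finset (Fin m)) (hk : 1 ≤ s.card) (hkm : 2 * s.card ≤ m)
    (hK : K = (stabilizer (Perm (Fin m)) s).subgroupOf (alternatingGroup (Fin m))) :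
    Good r K := by
  classical
  set k := s.card with hks
  have hidx : K.index = m.choose k := by
    have horb : orbit (alternatingGroup (Fin m)) s =
        ((Finset.univ.powersetCard k : Finset (Finset (Fin m))) : Set (Finset (Fin m))) := by
      ext t
      rw [Finset.mem_coe, Finset.mem_powersetCard_univ, mem_orbit_iff]
      constructor
      · rintro ⟨σ, rfl⟩
        exact Finset.card_smul_finset _ _
      · intro ht
        obtain ⟨σ, hσ, hσt⟩ := exists_smul_eq (by omega) (s := s) (t := t) (ht.symm ▸ hks.symm)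
        exact ⟨⟨σ, hσ⟩, hσt⟩
    have hst : K = stabilizer (alternatingGroup (Fin m)) s := by rw [hK]; rfl
    rw [hst, index_stabilizer, horb, Set.ncard_coe_finset, Finset.card_powersetCard,
      Finset.card_univ, Fintype.card_fin]
  rw [hidx] at hrd hmax
  obtain ⟨p, hp, hkp, hpd⟩ := Arith.Sylvester.exists_prime_gt_dvd_choose hk hkm
  have hkr : k < r := lt_of_lt_of_le hkp (hmax p hp hpd)
  have hdesc : r ∣ m.descFactorial k := by
    rw [Nat.descFactorial_eq_factorial_mul_choose]; exact hrd.mul_left _
  rw [Nat.descFactorial_eq_prod_range] at hdesc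
  obtain ⟨i, hi, hid⟩ := hr.prime.exists_mem_finset_dvd hdesc
  rw [Finset.mem_range] at hi
  have hmod : m % r < k := by
    obtain ⟨d, hd⟩ := hid
    have : m % r = i := by
      rw [show m = i + r * d by omega, Nat.add_mul_mod_self_left, Nat.mod_eq_of_lt (by omega)]
    omega
  have hrm : r ≤ m := by
    by_contra hlt
    push Not at hlt
    rw [Nat.mod_eq_of_lt hlt] at hmod
    omega
  have hev : Even (m / r * (r + 1)) := by
    rcases hr.eq_two_or_odd' with rfl | hodd
    · have hk1 : k = 1 := by omega
      rw [hk1, Nat.choose_one_right] at hrd hmax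
      have h4 : m % 4 = 0 := by
        by_contra h4
        have hodd2 : m / 2 % 2 = 1 := by omega
        obtain ⟨q, hq, hqd⟩ := Nat.exists_prime_and_dvd (show m / 2 ≠ 1 by omega)
        have hq2 : q ≠ 2 := fun e => by
          subst e
          omega
        have := hmax q hq (hqd.trans (Nat.div_dvd_of_dvd hrd))
        have := hq.two_le
        omega
      exact (Nat.even_iff.2 (by omega) : Even (m / 2)).mul_right _
    · exact (hodd.add_odd odd_one).mul_left _
  obtain ⟨x, hx, hxc⟩ := exists_prod_cycles hr (Nat.div_pos hrm hr.pos).ne'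
    (Nat.div_mul_le_self m r) hev
  refine ⟨x, hx, fun y hy => ?_⟩
  rw [hK, Subgroup.mem_subgroupOf, mem_stabilizer_iff] at hy
  have hc := cycleType_conj_eq x y
  rw [hxc] at hc
  have hpow : ((y * x * y⁻¹ : alternatingGroup (Fin m)) : Perm (Fin m)) ^ r = 1 := by
    rw [← SubmonoidClass.coe_pow, conj_pow, ← hx, pow_orderOf_eq_one, mul_one, mul_inv_cancel,
      OneMemClass.coe_one]
  generalize ((y * x * y⁻¹ : alternatingGroup (Fin m)) : Perm (Fin m)) = z at hy hc hpow
  have hsub : s ⊆ z.supportᶜ := by
    intro a ha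
    rw [Finset.mem_compl, Perm.notMem_support]
    refine fixed_of_small hr z (by rw [← Perm.coe_pow, hpow]; rfl) s ?_ hkr ha
    intro b hb
    have := Finset.smul_mem_smul_finset (a := z) hb
    rwa [hy, Perm.smul_def] at this
  have hcard := Finset.card_le_card hsub
  rw [Finset.card_compl, Fintype.card_fin, ← Perm.sum_cycleType, hc, Multiset.sum_replicate,
    smul_eq_mul, ← hks] at hcard
  have := Nat.div_add_mod m r
  rw [mul_comm] at this
  omega

/-- The imprimitive case: the stabilizer order is not divisible by a prime above `m / 2`. -/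
theorem not_dvd_card_of_block {H : Subgroup (Perm (Fin m))} [IsPretransitive H (Fin m)]
    {B : Set (Fin m)} (hB : IsBlock H B) (hB1 : ¬ B.Subsingleton) (hB2 : B ≠ Set.univ)
    {p : ℕ} (hp : p.Prime) (hpm : m < 2 * p) : ¬ p ∣ Nat.card H := by
  classical
  intro hd
  have hne : B.Nonempty := (Set.not_subsingleton_iff.1 hB1).nonempty
  have hmul := IsBlock.ncard_block_mul_ncard_orbit_eq hB hne
  rw [Nat.card_fin] at hmul
  have ha : 2 ≤ B.ncard :=
    (Set.one_lt_ncard_iff_nontrivial).2 (Set.not_subsingleton_iff.1 hB1)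
  have haN : B.ncard < m := by
    refine lt_of_lt_of_le (Set.ncard_lt_ncard (Set.ssubset_univ_iff.2 hB2)) ?_
    rw [Set.ncard_univ, Nat.card_fin]
  have hb : 2 ≤ (orbit H B).ncard := by
    by_contra hlt
    push Not at hlt
    have := Nat.mul_le_mul_left B.ncard (Nat.le_of_lt_succ hlt)
    omega
  have hap : B.ncard < p := by nlinarith
  have hbp : (orbit H B).ncard < p := by nlinarith
  have := Fact.mk hp
  obtain ⟨g, hg⟩ := exists_prime_orderOf_dvd_card' p hd
  have hgp : g ^ p = 1 := hg ▸ pow_orderOf_eq_one g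
  have hblock : ∀ C ∈ orbit H B, g • C = C := by
    intro C hC
    refine fixed_of_small hp (fun D : Set (Fin m) => g • D) ?_
      (Set.toFinite (orbit H B)).toFinset ?_ ?_ ((Set.Finite.mem_toFinset _).2 hC)
    · rw [smul_iterate, hgp]; funext D; exact one_smul _ D
    · intro D hD
      rw [Set.Finite.mem_toFinset] at hD ⊢
      obtain ⟨h, rfl⟩ := hD
      exact ⟨g * h, mul_smul g h B⟩
    · rwa [← Set.ncard_eq_toFinset_card]
  have hg1 : g = 1 := by
    apply Subtype.ext
    apply Equiv.ext
    intro x
    obtain ⟨b, hb'⟩ := hne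
    obtain ⟨h, rfl⟩ := MulAction.exists_smul_eq H b x
    have hgC := hblock (h • B) ⟨h, rfl⟩
    change g • (h • b) = h • b
    refine fixed_of_small hp (fun z : Fin m => g • z) ?_ (Set.toFinite (h • B)).toFinset ?_ ?_
      ((Set.Finite.mem_toFinset _).2 (Set.smul_mem_smul_set hb'))
    · rw [smul_iterate, hgp]; funext D; exact one_smul _ D
    · intro z hz
      rw [Set.Finite.mem_toFinset] at hz ⊢
      have := Set.smul_mem_smul_set (a := g) hz
      rwa [hgC] at this
    · rwa [← Set.ncard_eq_toFinset_card, Set.ncard_smul_set]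
  rw [hg1, orderOf_one] at hg
  exact hp.ne_one hg.symm

/-- The transitive imprimitive case. -/
theorem good_imprimitive (hm : 5 ≤ m) {r : ℕ} (hr : r.Prime)
    {H : Subgroup (Perm (Fin m))} [IsPretransitive H (Fin m)]
    (hrd : r ∣ (H.subgroupOf (alternatingGroup (Fin m))).index)
    (hmax : ∀ s : ℕ, s.Prime → s ∣ (H.subgroupOf (alternatingGroup (Fin m))).index → s ≤ r)
    {B : Set (Fin m)} (hB : IsBlock H B) (hB1 : ¬ B.Subsingleton) (hB2 : B ≠ Set.univ) :
    Good r (H.subgroupOf (alternatingGroup (Fin m))) := by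
  obtain ⟨p, hp, hp1, hp2⟩ := Nat.exists_prime_lt_and_le_two_mul (m / 2) (by omega)
  set K := H.subgroupOf (alternatingGroup (Fin m)) with hK
  have hnd : ¬ p ∣ Nat.card K := by
    intro hd
    refine not_dvd_card_of_block hB hB1 hB2 hp (by omega) (hd.trans ?_)
    rw [← Subgroup.card_map_of_injective (alternatingGroup (Fin m)).subtype_injective (K := K)]
    refine Subgroup.card_dvd_of_le ?_
    rintro _ ⟨z, hz, rfl⟩
    exact hz
  have hpA : p ∣ Nat.card (alternatingGroup (Fin m)) := by
    have h1 : p ∣ m.factorial := hp.dvd_factorial.2 (by omega)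
    rw [← two_mul_natCard (by omega)] at h1
    refine (hp.dvd_mul.1 h1).resolve_left fun h2 => ?_
    have := Nat.le_of_dvd (by omega) h2
    omega
  rw [← K.index_mul_card] at hpA
  have := hmax p hp ((hp.dvd_mul.1 hpA).resolve_right hnd)
  exact good_of_lt hr (by omega) hrd (by omega)

/-- The primitive case. -/
theorem good_primitive (hm : 5 ≤ m) {r : ℕ} (hr : r.Prime)
    {H : Subgroup (Perm (Fin m))} (hH : IsPreprimitive H (Fin m))
    (hA : ¬ alternatingGroup (Fin m) ≤ H)
    (hrd : r ∣ (H.subgroupOf (alternatingGroup (Fin m))).index)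
    (hmax : ∀ s : ℕ, s.Prime → s ∣ (H.subgroupOf (alternatingGroup (Fin m))).index → s ≤ r) :
    Good r (H.subgroupOf (alternatingGroup (Fin m))) := by
  rcases Nat.lt_or_ge m (2 * r) with hgt | hle
  · exact good_of_lt hr (by omega) hrd hgt
  rcases hr.eq_two_or_odd' with rfl | hodd
  · exfalso
    obtain ⟨c, hc, hcc⟩ := exists_prod_cycles (m := m) (r := 3) (j := 1) Nat.prime_three
      one_ne_zero (by omega) (by decide)
    have h3 : ¬ 3 ∣ (H.subgroupOf (alternatingGroup (Fin m))).index := fun h => by
      have := hmax 3 Nat.prime_three h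
      omega
    have := Fact.mk Nat.prime_three
    obtain ⟨g, hg⟩ := exists_conj_mem h3
      (x := c) (IsPGroup.of_card (n := 1) (by rw [Nat.card_zpowers, hc, pow_one]))
    rw [Subgroup.mem_subgroupOf] at hg
    refine hA (Equiv.Perm.alternatingGroup_le_of_isPreprimitive_of_isThreeCycle_mem hH ?_ hg)
    rw [Perm.IsThreeCycle, cycleType_conj_eq, hcc]
    rfl
  · obtain ⟨x, hx, hxc⟩ := exists_prod_cycles (m := m) (r := r) (j := 1) hr one_ne_zero
      (by omega) ((hodd.add_odd odd_one).mul_left _)
    refine ⟨x, hx, fun y hy => hA ?_⟩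
    rw [Subgroup.mem_subgroupOf] at hy
    have hc := cycleType_conj_eq x y
    rw [hxc, Multiset.replicate_one] at hc
    refine PermP.alternatingGroup_le_of_primeCycle H hH hr ?_
      (Perm.card_cycleType_eq_one.1 (by rw [hc]; rfl)) ?_ hy
    · rw [Fintype.card_fin]
      have h2 := hr.two_le
      obtain ⟨d, hd⟩ := hodd
      omega
    · rw [← Perm.sum_cycleType, hc, Multiset.sum_singleton]

/-- A maximal subgroup of a group containing `A_m`. -/
theorem good_of_maximal (hm : 5 ≤ m) {r : ℕ} (hr : r.Prime) {H : Subgroup (Perm (Fin m))}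
    (hA : ¬ alternatingGroup (Fin m) ≤ H)
    (hH : ∀ M : Subgroup (Perm (Fin m)), H ≤ M → ¬ alternatingGroup (Fin m) ≤ M →
      M.subgroupOf (alternatingGroup (Fin m)) = H.subgroupOf (alternatingGroup (Fin m)))
    (hrd : r ∣ (H.subgroupOf (alternatingGroup (Fin m))).index)
    (hmax : ∀ s : ℕ, s.Prime → s ∣ (H.subgroupOf (alternatingGroup (Fin m))).index → s ≤ r) :
    Good r (H.subgroupOf (alternatingGroup (Fin m))) := by
  classical
  by_cases htr : IsPretransitive H (Fin m)
  · by_cases hpr : IsPreprimitive H (Fin m)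
    · exact good_primitive hm hr hpr hA hrd hmax
    · obtain ⟨B, hB, hB1⟩ : ∃ B : Set (Fin m), IsBlock H B ∧ ¬ IsTrivialBlock B := by
        by_contra hno
        push Not at hno
        exact hpr { isTrivialBlock_of_isBlock := fun {B} hB => hno B hB }
      rw [IsTrivialBlock, not_or] at hB1
      exact good_imprimitive hm hr hrd hmax hB hB1.1 hB1.2
  obtain ⟨a, ha⟩ : ∃ a : Fin m, orbit H a ≠ Set.univ := by
    by_contra hno
    push Not at hno
    exact htr ⟨fun x y => mem_orbit_iff.1 (hno x ▸ Set.mem_univ y)⟩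
  set O : Finset (Fin m) := (orbit H a).toFinset with hO
  have hO1 : 1 ≤ O.card :=
    Finset.card_pos.2 ⟨a, by rw [hO, Set.mem_toFinset]; exact mem_orbit_self a⟩
  have hO2 : O.card < m := by
    have h1 : O ≠ Finset.univ := fun e => ha (by
      rw [hO] at e; rw [← Set.coe_toFinset (orbit H a), e, Finset.coe_univ])
    exact lt_of_lt_of_le (Finset.card_lt_card (Finset.ssubset_univ_iff.2 h1)) (by simp)
  have hHO : ∀ h ∈ H, ∀ b : Fin m, b ∈ O → h b ∈ O := by
    intro h hh b hb
    rw [hO, Set.mem_toFinset] at hb ⊢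
    exact mem_orbit_of_mem_orbit (⟨h, hh⟩ : H) hb
  obtain ⟨s, hs1, hs2, hsH⟩ : ∃ s : Finset (Fin m), 1 ≤ s.card ∧ 2 * s.card ≤ m ∧
      ∀ h ∈ H, ∀ b : Fin m, b ∈ s → h b ∈ s := by
    by_cases h2 : 2 * O.card ≤ m
    · exact ⟨O, hO1, h2, hHO⟩
    · refine ⟨Oᶜ, by rw [Finset.card_compl, Fintype.card_fin]; omega,
        by rw [Finset.card_compl, Fintype.card_fin]; omega, fun h hh b hb => ?_⟩
      rw [Finset.mem_compl] at hb ⊢
      intro hc
      have := hHO h⁻¹ (H.inv_mem hh) _ hc
      exact hb (by simpa using this)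
  have hle : H ≤ stabilizer (Perm (Fin m)) s := by
    intro h hh
    rw [mem_stabilizer_iff]
    refine Finset.eq_of_subset_of_card_le (fun z hz => ?_) (Finset.card_smul_finset _ _).ge
    rw [Finset.mem_smul_finset] at hz
    obtain ⟨b, hb, rfl⟩ := hz
    exact hsH h hh b hb
  have hnA : ¬ alternatingGroup (Fin m) ≤ stabilizer (Perm (Fin m)) s := by
    intro hA'
    obtain ⟨x, hx⟩ := Finset.card_pos.1 hs1
    obtain ⟨y, hy⟩ := Finset.card_pos.1
      (show 0 < sᶜ.card by rw [Finset.card_compl, Fintype.card_fin]; omega)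
    rw [Finset.mem_compl] at hy
    obtain ⟨σ, hσ, hσs⟩ := exists_smul_eq (by omega) (s := s) (t := insert y (s.erase x)) (by
      rw [Finset.card_insert_of_notMem (fun h => hy (Finset.mem_of_mem_erase h)),
        Finset.card_erase_of_mem hx]
      omega)
    rw [mem_stabilizer_iff.1 (hA' hσ)] at hσs
    exact hy (hσs ▸ Finset.mem_insert_self _ _)
  exact good_intransitive hm hr hrd hmax s hs1 hs2 (hH _ hle hnA).symm

/-- The group `A_6` has elements of every prime order `r` dividing the index with no conjugate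
in a given proper subgroup, `r` the largest such prime. -/
theorem good_six {r : ℕ} (hr : r.Prime) {K : Subgroup (alternatingGroup (Fin 6))}
    (hK : K ≠ ⊤) (hrd : r ∣ K.index)
    (hmax : ∀ s : ℕ, s.Prime → s ∣ K.index → s ≤ r) : Good r K := by
  classical
  have hcard : Nat.card (alternatingGroup (Fin 6)) = 360 := by
    have h := two_mul_natCard (m := 6) (by omega)
    rw [show (6 : ℕ).factorial = 720 by decide] at h
    omega
  have hmulc : K.index * Nat.card K = 360 := K.index_mul_card.trans hcard
  have hr5 : r = 2 ∨ r = 3 ∨ r = 5 := by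
    have h : r ∣ 2 ^ 3 * (3 ^ 2 * 5) := hrd.trans (Dvd.intro _ hmulc)
    rcases hr.dvd_mul.1 h with h | h
    · exact Or.inl ((Nat.prime_dvd_prime_iff_eq hr Nat.prime_two).1 (hr.dvd_of_dvd_pow h))
    rcases hr.dvd_mul.1 h with h | h
    · exact Or.inr (Or.inl
        ((Nat.prime_dvd_prime_iff_eq hr Nat.prime_three).1 (hr.dvd_of_dvd_pow h)))
    · exact Or.inr (Or.inr ((Nat.prime_dvd_prime_iff_eq hr (by norm_num)).1 h))
  rcases hr5 with rfl | rfl | rfl
  · exfalso
    have hne : ∀ p : ℕ, p.Prime → 2 < p → ¬ p ∣ K.index := fun p hp h2 h => by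
      have := hmax p hp h
      omega
    have hco : Nat.Coprime (3 ^ 2 * 5) K.index :=
      Nat.Coprime.mul_left
        (Nat.Coprime.pow_left _ ((Nat.prime_three.coprime_iff_not_dvd).2
          (hne 3 Nat.prime_three (by norm_num))))
        (((by norm_num : Nat.Prime 5).coprime_iff_not_dvd).2 (hne 5 (by norm_num) (by norm_num)))
    have h45 : 45 ∣ Nat.card K := hco.dvd_of_dvd_mul_left ⟨8, by rw [hmulc]; norm_num⟩
    have h8 : K.index ∣ 8 :=
      (Nat.Coprime.symm hco).dvd_of_dvd_mul_left ⟨Nat.card K, by rw [hmulc]; norm_num⟩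
    have hne1 : K.index ≠ 1 := fun e => hK (Subgroup.index_eq_one.1 e)
    have : IsSimpleGroup (alternatingGroup (Fin 6)) :=
      alternatingGroup.isSimpleGroup (by simp)
    have hfac : 360 ∣ K.index.factorial := hcard ▸ Invol.card_dvd_factorial_index hK
    have h45' : Nat.card K = 45 := by
      have hd : K.index ∈ Nat.divisors 8 := Nat.mem_divisors.2 ⟨h8, by norm_num⟩
      rw [show Nat.divisors 8 = {1, 2, 4, 8} by decide] at hd
      simp only [Finset.mem_insert, Finset.mem_singleton] at hd
      rcases hd with e | e | e | e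
      · exact absurd e hne1
      · rw [e] at hfac; norm_num [Nat.factorial] at hfac
      · rw [e] at hfac; norm_num [Nat.factorial] at hfac
      · rw [e] at hmulc; omega
    have := Fact.mk (show Nat.Prime 5 by norm_num)
    obtain ⟨g, hg⟩ := exists_prime_orderOf_dvd_card' 5 (show 5 ∣ Nat.card K by rw [h45']; norm_num)
    set σ : Perm (Fin 6) := ((g : alternatingGroup (Fin 6)) : Perm (Fin 6)) with hσ
    have hσ5 : orderOf σ = 5 := by rw [hσ, Subgroup.orderOf_coe, Subgroup.orderOf_coe, hg]
    obtain ⟨n, hn⟩ := Perm.cycleType_prime_order (by rw [hσ5]; norm_num)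
    rw [hσ5] at hn
    have hsum := (Perm.sum_cycleType σ).trans_le (Finset.card_le_univ σ.support)
    rw [hn, Multiset.sum_replicate, Fintype.card_fin, smul_eq_mul] at hsum
    have hn0 : n = 0 := by omega
    rw [hn0] at hn
    have hcyc : σ.IsCycle := Perm.card_cycleType_eq_one.1 (by rw [hn]; rfl)
    have hsupp : σ.support.card = 5 := by rw [← Perm.sum_cycleType, hn]; rfl
    obtain ⟨z, hz⟩ : ∃ z, z ∉ σ.support := by
      by_contra hno
      push Not at hno
      rw [Finset.eq_univ_of_forall hno] at hsupp
      simp at hsupp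
    have hz1 : σ z = z := Perm.notMem_support.1 hz
    have horb : orbit K z = {z} := by
      by_contra hne'
      obtain ⟨w, hw, hwz⟩ : ∃ w ∈ orbit K z, w ≠ z := by
        by_contra hno
        push Not at hno
        exact hne' (Set.eq_singleton_iff_unique_mem.2 ⟨mem_orbit_self z, hno⟩)
      have hwm : σ w ≠ w := by
        intro hfix
        have h2 : ({z, w} : Finset (Fin 6)) ⊆ σ.supportᶜ := by
          intro u hu
          rw [Finset.mem_compl, Perm.notMem_support]
          rcases Finset.mem_insert.1 hu with rfl | hu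
          · exact hz1
          · rw [Finset.mem_singleton.1 hu]; exact hfix
        have := Finset.card_le_card h2
        rw [Finset.card_pair (Ne.symm hwz), Finset.card_compl, hsupp, Fintype.card_fin] at this
        omega
      have huniv : orbit K z = Set.univ := by
        refine Set.eq_univ_of_forall fun u => ?_
        by_cases hu : σ u = u
        · have huz : u = z := by
            by_contra h
            have h2 : ({z, u} : Finset (Fin 6)) ⊆ σ.supportᶜ := by
              intro v hv
              rw [Finset.mem_compl, Perm.notMem_support]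
              rcases Finset.mem_insert.1 hv with rfl | hv
              · exact hz1
              · rw [Finset.mem_singleton.1 hv]; exact hu
            have := Finset.card_le_card h2
            rw [Finset.card_pair (Ne.symm h), Finset.card_compl, hsupp, Fintype.card_fin] at this
            omega
          rw [huz]; exact mem_orbit_self z
        · obtain ⟨i, hi⟩ := hcyc.exists_zpow_eq hwm hu
          have := mem_orbit_of_mem_orbit (g ^ i) hw
          rw [← hi]
          convert this using 1
          simp [hσ, Subgroup.smul_def]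
      have h6 : (orbit K z).ncard ∣ Nat.card K := by
        rw [← index_stabilizer]; exact Subgroup.index_dvd_card _
      rw [huniv, Set.ncard_univ, Nat.card_fin, h45'] at h6
      norm_num at h6
    have hst : K ≤ stabilizer (alternatingGroup (Fin 6)) z := by
      intro h hh
      have : (⟨h, hh⟩ : K) • z ∈ orbit K z := mem_orbit _ _
      rw [horb, Set.mem_singleton_iff] at this
      exact this
    have h60 : Nat.card (stabilizer (alternatingGroup (Fin 6)) z) = 60 := by
      have h := (stabilizer (alternatingGroup (Fin 6)) z).index_mul_card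
      have : IsPretransitive (alternatingGroup (Fin 6)) (Fin 6) :=
        ⟨fun a b => by
          obtain ⟨σ, hσ, hσab⟩ := exists_smul_eq (m := 6) (by omega) (s := {a}) (t := {b}) rfl
          refine ⟨⟨σ, hσ⟩, ?_⟩
          rw [Finset.smul_finset_singleton, Finset.singleton_inj] at hσab
          exact hσab⟩
      rw [index_stabilizer_of_transitive, Nat.card_fin, hcard] at h
      omega
    have := Subgroup.card_dvd_of_le hst
    rw [h45', h60] at this
    norm_num at this
  · by_cases h3 : 3 ∣ Nat.card K
    swap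
    · exact good_of_not_dvd hr (by rw [hcard]; norm_num) h3
    obtain ⟨a, ha, hac⟩ := exists_prod_cycles (m := 6) (r := 3) (j := 1) Nat.prime_three
      one_ne_zero (by omega) (by decide)
    obtain ⟨b, hb, hbc⟩ := exists_prod_cycles (m := 6) (r := 3) (j := 2) Nat.prime_three
      two_ne_zero (by omega) (by decide)
    by_contra hno
    rw [Good] at hno
    push Not at hno
    obtain ⟨y₁, hy₁⟩ := hno a ha
    obtain ⟨y₂, hy₂⟩ := hno b hb
    have := Fact.mk Nat.prime_three
    set a' : K := ⟨_, hy₁⟩ with ha'
    set b' : K := ⟨_, hy₂⟩ with hb'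
    have hoa : orderOf a' = 3 := by
      rw [ha', Subgroup.orderOf_mk, ← ha]; exact (MulAut.conj y₁).orderOf_eq a
    have hob : orderOf b' = 3 := by
      rw [hb', Subgroup.orderOf_mk, ← hb]; exact (MulAut.conj y₂).orderOf_eq b
    have hidx : ¬ 3 ∣ (Subgroup.zpowers a').index := by
      intro hd
      have h := (Subgroup.zpowers a').index_mul_card
      rw [Nat.card_zpowers, hoa] at h
      have h9 : 3 * 9 ∣ 360 := by
        rw [← hmulc, ← h]
        exact mul_dvd_mul hrd (mul_dvd_mul hd dvd_rfl)
      norm_num at h9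
    obtain ⟨g, hg⟩ := exists_conj_mem hidx
      (x := b') (IsPGroup.of_card (n := 1) (by rw [Nat.card_zpowers, hob, pow_one]))
    obtain ⟨i, hi⟩ := Subgroup.mem_zpowers_iff.1 hg
    have h := congrArg (fun z : K => ((z : alternatingGroup (Fin 6)) : Perm (Fin 6))) hi
    simp only [Subgroup.coe_mul, Subgroup.coe_inv, SubgroupClass.coe_zpow] at h
    have hle := Finset.card_le_card
      (Perm.support_zpow_le (((a' : K) : alternatingGroup (Fin 6)) : Perm (Fin 6)) i)
    rw [h, Perm.card_support_conj, ← Perm.sum_cycleType, ← Perm.sum_cycleType, ha', hb',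
      cycleType_conj_eq, cycleType_conj_eq, hac, hbc] at hle
    norm_num at hle
  · exact good_of_lt hr (by omega) hrd (by omega)

end Cfsg.Agent.AltSocle
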